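/-
The alternating group of degree 8 is isomorphic to `SL₄(2)`.
-/
import Mathlib.GroupTheory.SpecificGroups.Alternating.Simple
import Mathlib.LinearAlgebra.Matrix.GeneralLinearGroup.Card
import Cfsg.Agent.Lib.Alt.Carmichael

set_option autoImplicit false
set_option maxRecDepth 100000

namespace Cfsg.Agent.Alt

open Matrix

/-- The images of the 3-cycles `(i 6 7)`. -/
def a8M (i : Fin 8) : Matrix (Fin 4) (Fin 4) (ZMod 2) :=
  Matrix.of fun a b => (([4713, 9133, 12773, 38856, 42372, 46668, 33825, 33825].getD i 0 / 2 ^ (4 * a.val + b.val) : ℕ) : ZMod 2)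

theorem a8M_cube : ∀ i, a8M i * a8M i * a8M i = 1 := by decide +kernel

theorem a8M_rel : ∀ i j, i ≠ 6 → i ≠ 7 → j ≠ 6 → j ≠ 7 → i ≠ j → a8M i * a8M j * (a8M i * a8M j) = 1 := by
  decide +kernel

/-- The images of the 3-cycles as elements of the special linear group. -/
def a8S (i : Fin 8) : SpecialLinearGroup (Fin 4) (ZMod 2) :=
  ⟨a8M i, by
    have h := congrArg det (a8M_cube i)
    rw [det_mul, det_mul, det_one] at h
    revert h
    generalize (a8M i).det = d
    revert d
    decide⟩

theorem exists_equiv_A8 : Nonempty (alternatingGroup (Fin 8) ≃* SpecialLinearGroup (Fin 4) (ZMod 2)) := by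
  obtain ⟨φ, hφ⟩ := exists_carmichael_hom (u := (6 : Fin 8)) (v := 7) (by decide) a8S
    (fun i _ _ => Subtype.ext (by rw [pow_three']; exact a8M_cube i))
    fun i j h1 h2 h3 h4 h5 => Subtype.ext (by rw [sq]; exact a8M_rel i j h1 h2 h3 h4 h5)
  have := alternatingGroup.isSimpleGroup (α := Fin 8) (by simp)
  have hi : Function.Injective φ := by
    rw [← MonoidHom.ker_eq_bot_iff]
    refine (MonoidHom.normal_ker φ).eq_bot_or_eq_top.resolve_right fun e => ?_
    have h1 : φ (t3 0 6 7) = 1 := MonoidHom.mem_ker.1 (e ▸ Subgroup.mem_top _)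
    rw [hφ 0 (by decide) (by decide)] at h1
    exact absurd (congrArg Subtype.val h1) (show a8M 0 ≠ 1 by decide +kernel)
  refine ⟨MulEquiv.ofBijective φ (hi.bijective_of_nat_card_le ?_)⟩
  refine (Nat.card_le_card_of_injective _ SpecialLinearGroup.toGL_injective).trans ?_
  rw [card_GL_field, nat_card_alternatingGroup]
  simp only [ZMod.card, Nat.card_eq_fintype_card, Fintype.card_fin]
  decide +kernel

end Cfsg.Agent.Alt
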