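import Cfsg.Agent.Lib.Alt.AbelNum
import Cfsg.Agent.Lib.Alt.Nilp

set_option autoImplicit false

namespace Cfsg.Agent.Alt

open Equiv Equiv.Perm MulAction

variable {α : Type*}

/-- The product of the transitive constituents. -/
def hat (A : Subgroup (Perm α)) : Subgroup (Perm α) where
  carrier := {g | ∀ a, ∃ h ∈ A, ∀ x ∈ orbit A a, g x = h x}
  one_mem' := fun _ => ⟨1, one_mem _, fun _ _ => rfl⟩
  mul_mem' := fun {g g'} hg hg' a => by
    obtain ⟨h, hh, h1⟩ := hg a
    obtain ⟨h', hh', h2⟩ := hg' a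
    refine ⟨h * h', mul_mem hh hh', fun x hx => ?_⟩
    rw [Perm.mul_apply, Perm.mul_apply, h2 x hx, h1 _ ((orbit_invariant A a h' hh' x).2 hx)]
  inv_mem' := fun {g} hg a => by
    obtain ⟨h, hh, h1⟩ := hg a
    refine ⟨h⁻¹, inv_mem hh, fun x hx => ?_⟩
    rw [inv_eq_iff_eq, h1 _ ((orbit_invariant A a _ (inv_mem hh) x).2 hx), papply_inv]

theorem le_hat (A : Subgroup (Perm α)) : A ≤ hat A := fun g hg _ => ⟨g, hg, fun _ _ => rfl⟩

theorem semiregular {A : Subgroup (Perm α)} (hA : IsMulCommutative A) {h k : Perm α} (hh : h ∈ A)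
    (hk : k ∈ A) {a : α} (ha : h a = k a) : ∀ x ∈ orbit A a, h x = k x := by
  rintro _ ⟨u, rfl⟩
  have h1 : h * u.1 = u.1 * h := congrArg Subtype.val (hA.is_comm.comm (⟨h, hh⟩ : A) u)
  have h2 : k * u.1 = u.1 * k := congrArg Subtype.val (hA.is_comm.comm (⟨k, hk⟩ : A) u)
  change (h * u.1) a = (k * u.1) a
  rw [h1, h2, Perm.mul_apply, Perm.mul_apply, ha]

theorem exists_restr (A : Subgroup (Perm α)) {h : Perm α} (hh : h ∈ A) (a : α) :
    ∃ u ∈ hat A, (∀ x ∈ orbit A a, u x = h x) ∧ ∀ x ∉ orbit A a, u x = x := by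
  classical
  have h1 : ∀ x ∈ orbit A a, ofSubtype (h.subtypePerm (orbit_invariant A a h hh)) x = h x :=
    fun x hx => ofSubtype_apply_of_mem _ hx
  have h2 : ∀ x ∉ orbit A a, ofSubtype (h.subtypePerm (orbit_invariant A a h hh)) x = x :=
    fun x hx => ofSubtype_apply_of_not_mem _ hx
  refine ⟨_, fun b => ?_, h1, h2⟩
  by_cases hb : b ∈ orbit A a
  · exact ⟨h, hh, fun x hx => h1 x (orbit_eq_iff.2 hb ▸ hx)⟩
  · refine ⟨1, one_mem _, fun x hx => h2 x fun h3 => hb ?_⟩
    rw [← orbit_eq_iff.2 h3, orbit_eq_iff.2 hx]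
    exact mem_orbit_self b

variable [Fintype α]

open Classical in
/-- The multiset of orbit lengths. -/
noncomputable def orbSizes (A : Subgroup (Perm α)) : Multiset ℕ :=
  (Finset.univ : Finset (orbitRel.Quotient A α)).val.map fun ω => Nat.card ω.orbit

theorem sum_orbSizes (A : Subgroup (Perm α)) : (orbSizes A).sum = Fintype.card α := by
  classical
  rw [← Nat.card_eq_fintype_card, Nat.card_congr (selfEquivSigmaOrbits' A α), Nat.card_sigma]
  rfl

theorem mem_orbSizes (A : Subgroup (Perm α)) (a : α) : Nat.card (orbit A a) ∈ orbSizes A := by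
  classical
  exact Multiset.mem_map.2 ⟨Quotient.mk'' a, Finset.mem_univ _, rfl⟩

theorem exists_of_mem_orbSizes {A : Subgroup (Perm α)} {c : ℕ} (h : c ∈ orbSizes A) :
    ∃ a : α, Nat.card (orbit A a) = c := by
  obtain ⟨ω, -, rfl⟩ := Multiset.mem_map.1 h
  induction ω using Quotient.inductionOn' with | h a => exact ⟨a, rfl⟩

theorem card_hat_le {A : Subgroup (Perm α)} (hA : IsMulCommutative A) :
    Nat.card (hat A) ≤ (orbSizes A).prod := by
  classical
  have h1 : ∀ (g : hat A) (ω : orbitRel.Quotient A α), g.1 ω.out ∈ ω.orbit := by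
    intro g ω
    obtain ⟨h, hh, h2⟩ := g.2 ω.out
    rw [orbitRel.Quotient.orbit_eq_orbit_out ω Quotient.out_eq', h2 _ (mem_orbit_self _)]
    exact ⟨⟨h, hh⟩, rfl⟩
  have h2 : Function.Injective
      (fun (g : hat A) (ω : orbitRel.Quotient A α) => (⟨_, h1 g ω⟩ : ω.orbit)) := by
    intro g g' h
    ext x
    set b := (Quotient.mk'' x : orbitRel.Quotient A α).out
    have h3 : g.1 b = g'.1 b := congrArg Subtype.val (congrFun h (Quotient.mk'' x))
    have h4 : x ∈ orbit A b :=
      (orbitRel A α).symm (Quotient.mk_out' (s₁ := orbitRel A α) x)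
    obtain ⟨k, hk, h5⟩ := g.2 b
    obtain ⟨k', hk', h6⟩ := g'.2 b
    rw [h5 _ (mem_orbit_self _), h6 _ (mem_orbit_self _)] at h3
    rw [h5 x h4, h6 x h4, semiregular hA hk hk' h3 x h4]
  refine (Nat.card_le_card_of_injective _ h2).trans ?_
  rw [Nat.card_pi]
  rfl

theorem abel_card_le {A : Subgroup (Perm α)} (hA : IsMulCommutative A) :
    Nat.card A ≤ abF (Fintype.card α) :=
  (Subgroup.card_le_of_le (le_hat A)).trans ((card_hat_le hA).trans
    (sum_orbSizes A ▸ prod_le_abF _))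

variable [DecidableEq α]

theorem two_notMem_orbSizes {A : Subgroup (Perm α)} (h : hat A ≤ alternatingGroup α) :
    2 ∉ orbSizes A := by
  intro h1
  obtain ⟨a, ha⟩ := exists_of_mem_orbSizes h1
  rw [Nat.card_coe_set_eq, Set.ncard_eq_two] at ha
  obtain ⟨x, y, xy, hxy⟩ := ha
  have hx : x ∈ orbit A a := by simp [hxy]
  have hy : y ∈ orbit A x := by rw [orbit_eq_iff.2 hx]; simp [hxy]
  obtain ⟨k, hk⟩ := hy
  have hk' : k.1 x = y := hk
  obtain ⟨u, hu, h2, h3⟩ := exists_restr A k.2 a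
  have h4 := (orbit_invariant A a k.1 k.2 y).2 (by simp [hxy])
  have h5 : k.1 y = k.1 x ↔ y = x := k.1.injective.eq_iff
  have h6 : u = swap x y := by
    ext z
    have h7 := h2 z
    have h8 := h3 z
    simp only [hxy, Set.mem_insert_iff, Set.mem_singleton_iff] at h4 h7 h8
    rw [swap_apply_def]
    grind
  have h7 := mem_alternatingGroup.1 (h hu)
  rw [h6, sign_swap xy] at h7
  exact absurd h7 (by decide)

theorem abel_alt_cases {A : Subgroup (Perm α)} (hA : IsMulCommutative A)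
    (h : A ≤ alternatingGroup α) (h3 : 3 ≤ Fintype.card α) :
    Nat.card A < abG (Fintype.card α) ∨ hat A ≤ alternatingGroup α := by
  refine or_iff_not_imp_right.2 fun h1 => ?_
  have h2 := two_mul_card_le_of_lt (lt_of_le_of_ne (le_hat A) fun h4 => h1 (h4 ▸ h))
  have h4 := (card_hat_le hA).trans (sum_orbSizes A ▸ prod_le_abF (orbSizes A))
  have h5 := abF_lt_two_mul h3
  omega

theorem card_hat_le_abG {A : Subgroup (Perm α)} (hA : IsMulCommutative A)
    (h : hat A ≤ alternatingGroup α) : Nat.card (hat A) ≤ abG (Fintype.card α) :=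
  (card_hat_le hA).trans (sum_orbSizes A ▸ prod_le_abG _ (two_notMem_orbSizes h))

theorem abel_alt_card_le {A : Subgroup (Perm α)} (hA : IsMulCommutative A)
    (h : A ≤ alternatingGroup α) (h3 : 3 ≤ Fintype.card α) :
    Nat.card A ≤ abG (Fintype.card α) := by
  rcases abel_alt_cases hA h h3 with h1 | h1
  · exact h1.le
  · exact (Subgroup.card_le_of_le (le_hat A)).trans (card_hat_le_abG hA h1)

theorem abel_extremal {A : Subgroup (Perm α)} (hA : IsMulCommutative A)
    (h : A ≤ alternatingGroup α) (h3 : 3 ≤ Fintype.card α) (h5 : Fintype.card α ≠ 5)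
    (hc : abG (Fintype.card α) ≤ Nat.card A) : hat A = A ∧ (∀ p ∈ orbSizes A, p = 3 ∨ p = 4) ∧
      (orbSizes A).prod = abG (Fintype.card α) := by
  have h1 := (abel_alt_cases hA h h3).resolve_left (not_lt.2 hc)
  have h2 := card_hat_le_abG hA h1
  have h4 := (Subgroup.card_le_of_le (le_hat A)).trans (card_hat_le hA)
  have h6 := sum_orbSizes A
  refine ⟨(Subgroup.eq_of_le_of_card_ge (le_hat A) (h2.trans hc)).symm, fun p hp => ?_,
    le_antisymm (h6 ▸ prod_le_abG _ (two_notMem_orbSizes h1)) (hc.trans h4)⟩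
  exact mem_of_prod_eq_abG (two_notMem_orbSizes h1) (h6 ▸ h3) (h6 ▸ h5) (h6 ▸ hc.trans h4) hp

theorem small_eq_fin {m : ℕ} (hm : m = 3 ∨ m = 4) (u v : Perm (Fin m)) (hu : sign u = 1)
    (hv : sign v = 1) (hu' : (∀ x, u x = x) ∨ ∀ x, u x ≠ x) (hv' : (∀ x, v x = x) ∨ ∀ x, v x ≠ x)
    (b : Fin m) (hb : u b = v b) : u = v := by
  rcases hm with rfl | rfl <;> revert u v b <;> decide +kernel

theorem small_eq {O : Set α} (hO : Nat.card O = 3 ∨ Nat.card O = 4) {u v : Perm α}
    (hu : sign u = 1) (hv : sign v = 1) (hu0 : ∀ x ∉ O, u x = x) (hv0 : ∀ x ∉ O, v x = x)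
    (hu' : (∀ x ∈ O, u x = x) ∨ ∀ x ∈ O, u x ≠ x) (hv' : (∀ x ∈ O, v x = x) ∨ ∀ x ∈ O, v x ≠ x)
    {b : α} (hb : b ∈ O) (h : u b = v b) : ∀ x ∈ O, u x = v x := by
  classical
  have inv : ∀ u : Perm α, (∀ x ∉ O, u x = x) → ∀ x, u x ∈ O ↔ x ∈ O := by
    intro u hu x
    by_cases hx : x ∈ O
    · refine iff_of_true (by_contra fun h1 => h1 ?_) hx
      rwa [u.injective (hu _ h1)]
    · rw [hu x hx]
  have e := Finite.equivFin O
  have key := small_eq_fin hO (e.permCongr (u.subtypePerm (inv u hu0)))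
    (e.permCongr (v.subtypePerm (inv v hv0)))
    (by rw [sign_permCongr, sign_subtypePerm _ _ fun x hx => by_contra fun h => hx (hu0 x h), hu])
    (by rw [sign_permCongr, sign_subtypePerm _ _ fun x hx => by_contra fun h => hx (hv0 x h), hv])
    (hu'.imp (fun h x => by
        rw [permCongr_apply, ← Equiv.eq_symm_apply]; exact Subtype.ext (h _ (e.symm x).2))
      fun h x h1 => by
        rw [permCongr_apply, ← Equiv.eq_symm_apply] at h1
        exact h _ (e.symm x).2 (congrArg Subtype.val h1))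
    (hv'.imp (fun h x => by
        rw [permCongr_apply, ← Equiv.eq_symm_apply]; exact Subtype.ext (h _ (e.symm x).2))
      fun h x h1 => by
        rw [permCongr_apply, ← Equiv.eq_symm_apply] at h1
        exact h _ (e.symm x).2 (congrArg Subtype.val h1))
    (e ⟨b, hb⟩) (by
      rw [permCongr_apply, permCongr_apply, symm_apply_apply]
      exact congrArg e (Subtype.ext h))
  intro x hx
  exact congrArg Subtype.val (DFunLike.congr_fun (e.permCongr.injective key) (⟨x, hx⟩ : O))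

theorem conj_mem_of_orbits {A B : Subgroup (Perm α)} (hA : IsMulCommutative A)
    (hB : IsMulCommutative B) (hA1 : hat A ≤ alternatingGroup α) (hB1 : hat B ≤ alternatingGroup α)
    (hB2 : ∀ p ∈ orbSizes B, p = 3 ∨ p = 4) {g : Perm α}
    (hg : ∀ x y, g x ∈ orbit B (g y) ↔ x ∈ orbit A y) {h : Perm α} (hh : h ∈ A) :
    g * h * g⁻¹ ∈ hat B := by
  intro b
  obtain ⟨a, rfl⟩ := g.surjective b
  obtain ⟨k, hk⟩ := (hg (h a) a).2 ⟨⟨h, hh⟩, rfl⟩
  have hk' : k.1 (g a) = g (h a) := hk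
  refine ⟨k.1, k.2, fun y hy => ?_⟩
  obtain ⟨u, hu, u1, u2⟩ := exists_restr A hh a
  obtain ⟨v, hv, v1, v2⟩ := exists_restr B k.2 (g a)
  have semi : ∀ {C : Subgroup (Perm α)}, IsMulCommutative C → ∀ k ∈ C, ∀ a,
      (∀ x ∈ orbit C a, k x = x) ∨ ∀ x ∈ orbit C a, k x ≠ x := by
    intro C hC k hk a
    refine or_iff_not_imp_right.2 fun h1 => ?_
    push Not at h1
    obtain ⟨x, hx, h2⟩ := h1
    rw [← orbit_eq_iff.2 hx]
    exact semiregular hC hk (one_mem _) h2
  have key := small_eq (hB2 _ (mem_orbSizes B (g a))) (u := g * u * g⁻¹) (v := v)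
    (mem_alternatingGroup.1 ((alternatingGroup.normal (α := α)).conj_mem _ (hA1 hu) g))
    (mem_alternatingGroup.1 (hB1 hv))
    (fun y hy => by
      obtain ⟨x, rfl⟩ := g.surjective y
      rw [Perm.mul_apply, Perm.mul_apply, pinv_apply, u2 x fun h1 => hy ((hg x a).2 h1)])
    v2
    ((semi hA h hh a).imp (fun h1 y hy => by
        obtain ⟨x, rfl⟩ := g.surjective y
        rw [Perm.mul_apply, Perm.mul_apply, pinv_apply, u1 x ((hg x a).1 hy),
          h1 x ((hg x a).1 hy)])
      fun h1 y hy => by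
        obtain ⟨x, rfl⟩ := g.surjective y
        rw [Perm.mul_apply, Perm.mul_apply, pinv_apply, u1 x ((hg x a).1 hy)]
        exact g.injective.ne (h1 x ((hg x a).1 hy)))
    ((semi hB k.1 k.2 (g a)).imp (fun h1 y hy => (v1 y hy).trans (h1 y hy))
      fun h1 y hy => (v1 y hy).symm ▸ h1 y hy)
    (mem_orbit_self (g a))
    (by rw [Perm.mul_apply, Perm.mul_apply, pinv_apply, u1 a (mem_orbit_self a),
      v1 _ (mem_orbit_self _), hk']) y hy
  obtain ⟨x, rfl⟩ := g.surjective y
  rw [Perm.mul_apply, Perm.mul_apply, pinv_apply, u1 x ((hg x a).1 hy), v1 _ hy] at key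
  rw [Perm.mul_apply, Perm.mul_apply, pinv_apply, key]

omit [DecidableEq α] in
theorem exists_orbit_equiv {A B : Subgroup (Perm α)} (h : orbSizes A = orbSizes B) :
    ∃ g : Perm α, ∀ x y, g x ∈ orbit B (g y) ↔ x ∈ orbit A y := by
  classical
  have h1 : ∀ c, Fintype.card {ω : orbitRel.Quotient A α // Nat.card ω.orbit = c} =
      Fintype.card {ω : orbitRel.Quotient B α // Nat.card ω.orbit = c} := by
    intro c
    have h2 := congrArg (Multiset.count c) h
    simp only [orbSizes, Multiset.count_map] at h2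
    rw [Fintype.card_subtype, Fintype.card_subtype]
    simp only [eq_comm (a := c)] at h2
    exact h2
  let φ := Equiv.ofFiberEquiv fun c => Fintype.equivOfCardEq (h1 c)
  have hφ : ∀ ω, Nat.card (φ ω).orbit = Nat.card ω.orbit := fun ω =>
    Equiv.ofFiberEquiv_map (fun c => Fintype.equivOfCardEq (h1 c)) ω
  have h2 : ∀ c : orbitRel.Quotient B α,
      Nat.card {a : α // φ (Quotient.mk'' a) = c} =
        Nat.card {b : α // (Quotient.mk'' b : orbitRel.Quotient B α) = c} := by
    intro c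
    obtain ⟨ω, rfl⟩ := φ.surjective c
    simp only [φ.apply_eq_iff_eq, ← orbitRel.Quotient.mem_orbit]
    exact (hφ ω).symm
  let g := Equiv.ofFiberEquiv fun c => (Finite.card_eq.1 (h2 c)).some
  have hg : ∀ a, (Quotient.mk'' (g a) : orbitRel.Quotient B α) = φ (Quotient.mk'' a) :=
    Equiv.ofFiberEquiv_map _
  refine ⟨g, fun x y => ?_⟩
  rw [← orbitRel_apply, ← orbitRel_apply, ← Quotient.eq'', ← Quotient.eq'']
  exact (hg x ▸ hg y ▸ φ.apply_eq_iff_eq)

theorem abel_conj {A B : Subgroup (Perm α)} (hA : IsMulCommutative A) (hB : IsMulCommutative B)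
    (hA1 : A ≤ alternatingGroup α) (hB1 : B ≤ alternatingGroup α) (h3 : 3 ≤ Fintype.card α)
    (h5 : Fintype.card α ≠ 5) (hcA : abG (Fintype.card α) ≤ Nat.card A)
    (hcB : abG (Fintype.card α) ≤ Nat.card B) :
    ∃ g ∈ alternatingGroup α, ∀ h ∈ A, g * h * g⁻¹ ∈ B := by
  obtain ⟨a1, a2, a3⟩ := abel_extremal hA hA1 h3 h5 hcA
  obtain ⟨b1, b2, b3⟩ := abel_extremal hB hB1 h3 h5 hcB
  obtain ⟨g, hg⟩ := exists_orbit_equiv (eq_of_prod_eq a2 b2 (a3.trans b3.symm))
  have key : ∀ g : Perm α, (∀ x y, g x ∈ orbit B (g y) ↔ x ∈ orbit A y) →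
      ∀ h ∈ A, g * h * g⁻¹ ∈ B := fun g hg h hh =>
    b1 ▸ conj_mem_of_orbits hA hB (a1.symm ▸ hA1) (b1.symm ▸ hB1) b2 hg hh
  rcases Int.units_eq_one_or (sign g) with h1 | h1
  · exact ⟨g, mem_alternatingGroup.2 h1, key g hg⟩
  obtain ⟨a⟩ : Nonempty α := Fintype.card_pos_iff.1 (by omega)
  obtain ⟨b, hb, ba⟩ : ∃ b ∈ orbit A a, b ≠ a := by
    have h2 := a2 _ (mem_orbSizes A a)
    rw [Nat.card_coe_set_eq] at h2
    exact Set.exists_ne_of_one_lt_ncard (by omega) a
  refine ⟨g * swap b a, mem_alternatingGroup.2 (by rw [map_mul, h1, sign_swap ba]; simp),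
    key _ fun x y => ?_⟩
  have h2 : ∀ x, orbit A (swap b a x) = orbit A x := by
    intro x
    rw [swap_apply_def]
    split_ifs with h6 h7
    · rw [h6, orbit_eq_iff.2 hb]
    · rw [h7, orbit_eq_iff.2 hb]
    · rfl
  rw [Perm.mul_apply, Perm.mul_apply, hg, ← orbit_eq_iff, h2, h2, orbit_eq_iff]

/-- There is an abelian group of permutations of the given degree and order. -/
def AbEx (n c : ℕ) (ev : Prop) : Prop := ∃ A : Subgroup (Perm (Fin n)), IsMulCommutative A ∧
  Nat.card A = c ∧ (ev → A ≤ alternatingGroup (Fin n))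

theorem AbEx.one (n : ℕ) (ev : Prop) : AbEx n 1 ev :=
  ⟨⊥, inferInstance, Subgroup.card_bot, fun _ => bot_le⟩

theorem AbEx.of_hom {n : ℕ} {ev : Prop} {G : Type*} [CommGroup G] (φ : G →* Perm (Fin n))
    (hφ : Function.Injective φ) (h : ev → ∀ g, sign (φ g) = 1) : AbEx n (Nat.card G) ev := by
  refine ⟨φ.range, ⟨⟨?_⟩⟩, card_range_of_injective hφ, ?_⟩
  · rintro ⟨_, x, rfl⟩ ⟨_, y, rfl⟩
    exact Subtype.ext (by simp only [Subgroup.coe_mul, ← map_mul, mul_comm])
  · rintro he _ ⟨x, rfl⟩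
    exact h he x

theorem AbEx.regular {ev : Prop} (G : Type) [CommGroup G] [Fintype G] [DecidableEq G]
    (h : ev → ∀ g, sign (MulAction.toPermHom G G g) = 1) :
    AbEx (Fintype.card G) (Fintype.card G) ev := by
  have := AbEx.of_hom (ev := ev) ((Fintype.equivFin G).permCongrHom.toMonoidHom.comp
    (MulAction.toPermHom G G))
    ((Equiv.permCongrHom _).injective.comp MulAction.toPerm_injective)
    (fun he g => by simpa [permCongrHom] using h he g)
  rwa [Nat.card_eq_fintype_card] at this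

theorem AbEx.add {m n c d : ℕ} {ev : Prop} (h1 : AbEx m c ev) (h2 : AbEx n d ev) :
    AbEx (m + n) (c * d) ev := by
  obtain ⟨A, hA, rfl, hA'⟩ := h1
  obtain ⟨B, hB, rfl, hB'⟩ := h2
  open scoped IsMulCommutative in
  have := AbEx.of_hom (ev := ev) (G := A × B) (finSumFinEquiv.permCongrHom.toMonoidHom.comp
    ((sumCongrHom _ _).comp (A.subtype.prodMap B.subtype)))
    ((Equiv.permCongrHom _).injective.comp (sumCongrHom_injective.comp
      (Subtype.coe_injective.prodMap Subtype.coe_injective)))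
    (fun he g => by
      simp [permCongrHom, sumCongrHom, mem_alternatingGroup.1 (hA' he g.1.2),
        mem_alternatingGroup.1 (hB' he g.2.2)])
  rwa [Nat.card_prod] at this

theorem abEx_two : AbEx 2 2 False := AbEx.regular (Multiplicative (ZMod 2)) False.elim
theorem abEx_three (ev : Prop) : AbEx 3 3 ev :=
  AbEx.regular (Multiplicative (ZMod 3)) fun _ => by decide
theorem abEx_four (ev : Prop) : AbEx 4 4 ev :=
  AbEx.regular (Multiplicative (ZMod 2 × ZMod 2)) fun _ => by decide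
theorem abEx_five (ev : Prop) : AbEx 5 5 ev :=
  AbEx.regular (Multiplicative (ZMod 5)) fun _ => by decide

theorem abEx_abF (n : ℕ) : AbEx n (abF n) False := by
  induction n using Nat.strong_induction_on with | _ n ih => ?_
  by_cases h : n < 5
  · interval_cases n
    exacts [AbEx.one _ _, AbEx.one _ _, abEx_two, abEx_three _, abEx_four _]
  · obtain ⟨k, rfl⟩ : ∃ k, n = k + 3 := ⟨n - 3, by omega⟩
    rw [abF_add_three (by omega), mul_comm]
    exact (ih k (by omega)).add (abEx_three _)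

theorem abEx_abG (n : ℕ) : AbEx n (abG n) True := by
  induction n using Nat.strong_induction_on with | _ n ih => ?_
  by_cases h : n < 9
  · interval_cases n
    exacts [AbEx.one _ _, AbEx.one _ _, AbEx.one _ _, abEx_three _, abEx_four _, abEx_five _,
      (abEx_three _).add (abEx_three _), (abEx_three _).add (abEx_four _),
      (abEx_four _).add (abEx_four _)]
  · obtain ⟨k, rfl⟩ : ∃ k, n = k + 3 := ⟨n - 3, by omega⟩
    rw [abG_add_three (by omega), mul_comm]
    exact (ih k (by omega)).add (abEx_three _)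

theorem isGreatest_abel_perm (n : ℕ) : IsGreatest {c : ℕ | ∃ A : Subgroup (Perm (Fin n)),
    IsMulCommutative A ∧ Nat.card A = c} (abF n) := by
  constructor
  · obtain ⟨A, h1, h2, -⟩ := abEx_abF n
    exact ⟨A, h1, h2⟩
  · rintro _ ⟨A, h1, rfl⟩
    simpa using abel_card_le h1

theorem exists_abel_alt (n : ℕ) : ∃ A : Subgroup (alternatingGroup (Fin n)),
    IsMulCommutative A ∧ Nat.card A = abG n := by
  obtain ⟨A, h1, h2, h3⟩ := abEx_abG n
  exact ⟨A.subgroupOf _, inferInstance,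
    (Nat.card_congr (Subgroup.subgroupOfEquivOfLe (h3 trivial)).toEquiv).trans h2⟩

theorem isGreatest_abel_alt {n : ℕ} (hn : 3 ≤ n) : IsGreatest {c : ℕ |
    ∃ A : Subgroup (alternatingGroup (Fin n)), IsMulCommutative A ∧ Nat.card A = c} (abG n) := by
  refine ⟨exists_abel_alt n, ?_⟩
  rintro _ ⟨A, h1, rfl⟩
  rw [← Subgroup.card_map_of_injective (alternatingGroup (Fin n)).subtype_injective]
  simpa using abel_alt_card_le (A := A.map (alternatingGroup (Fin n)).subtype) inferInstance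
    (Subgroup.map_subtype_le _) (by simpa using hn)

end Cfsg.Agent.Alt
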