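import Mathlib

set_option autoImplicit false

namespace Cfsg.Agent.Alt

/-- The largest product of a partition of `n`. -/
def abF : ℕ → ℕ
  | 0 => 1
  | 1 => 1
  | 2 => 2
  | 3 => 3
  | 4 => 4
  | n + 5 => 3 * abF (n + 2)

/-- The largest product of a partition of `n` without parts equal to two. -/
def abG : ℕ → ℕ
  | 0 => 1
  | 1 => 1
  | 2 => 1
  | 3 => 3
  | 4 => 4
  | 5 => 5
  | 6 => 9
  | 7 => 12
  | 8 => 16
  | n + 9 => 3 * abG (n + 6)

theorem abF_add_three {n : ℕ} (h : 2 ≤ n) : abF (n + 3) = 3 * abF n := by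
  obtain ⟨k, rfl⟩ : ∃ k, n = k + 2 := ⟨n - 2, by omega⟩
  rfl

theorem abG_add_three {n : ℕ} (h : 6 ≤ n) : abG (n + 3) = 3 * abG n := by
  obtain ⟨k, rfl⟩ : ∃ k, n = k + 6 := ⟨n - 6, by omega⟩
  rfl

theorem abG_pos (n : ℕ) : 0 < abG n := by
  induction n using Nat.strong_induction_on with | _ n ih => ?_
  by_cases h : n < 9
  · interval_cases n <;> decide
  · obtain ⟨k, rfl⟩ : ∃ k, n = k + 3 := ⟨n - 3, by omega⟩
    rw [abG_add_three (by omega)]
    have := ih k (by omega)
    omega

theorem mul_abF_le (p k : ℕ) : p * abF k ≤ abF (p + k) := by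
  induction p using Nat.strong_induction_on generalizing k with | _ p ih => ?_
  by_cases hp : p < 5
  · induction k using Nat.strong_induction_on with | _ k ihk => ?_
    by_cases hk : k < 5
    · interval_cases p <;> interval_cases k <;> decide
    · obtain ⟨j, rfl⟩ : ∃ j, k = j + 3 := ⟨k - 3, by omega⟩
      rw [← add_assoc, abF_add_three (by omega), abF_add_three (by omega), mul_left_comm]
      exact Nat.mul_le_mul_left _ (ihk j (by omega))
  · obtain ⟨q, rfl⟩ : ∃ q, p = q + 3 := ⟨p - 3, by omega⟩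
    rw [add_right_comm, abF_add_three (by omega)]
    have := ih q (by omega) k
    have h2 : 2 * abF k ≤ q * abF k := Nat.mul_le_mul_right _ (by omega)
    rw [add_mul]
    omega

theorem mul_abG_lt (p k : ℕ) (h0 : p ≠ 0) (h2 : p ≠ 2) (h3 : p ≠ 3) (h4 : p ≠ 4) (h : 3 ≤ p + k)
    (h5 : p + k ≠ 5) : p * abG k < abG (p + k) := by
  induction p using Nat.strong_induction_on generalizing k with | _ p ih => ?_
  by_cases hp : p < 9
  · induction k using Nat.strong_induction_on with | _ k ihk => ?_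
    by_cases hk : k < 9
    · interval_cases p <;> interval_cases k <;> first | omega | decide
    · obtain ⟨j, rfl⟩ : ∃ j, k = j + 3 := ⟨k - 3, by omega⟩
      rw [← add_assoc, abG_add_three (by omega), abG_add_three (by omega), mul_left_comm]
      exact Nat.mul_lt_mul_of_pos_left (ihk j (by omega) (by omega) (by omega)) (by norm_num)
  · obtain ⟨q, rfl⟩ : ∃ q, p = q + 3 := ⟨p - 3, by omega⟩
    rw [add_right_comm, abG_add_three (by omega)]
    have := ih q (by omega) k (by omega) (by omega) (by omega) (by omega) (by omega) (by omega)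
    have h2 : 2 * abG k ≤ q * abG k := Nat.mul_le_mul_right _ (by omega)
    rw [add_mul]
    omega

theorem mul_abG_le (p k : ℕ) (h2 : p ≠ 2) : p * abG k ≤ abG (p + k) := by
  by_cases h : p ≠ 0 ∧ p ≠ 3 ∧ p ≠ 4 ∧ 3 ≤ p + k ∧ p + k ≠ 5
  · exact (mul_abG_lt p k h.1 h2 h.2.1 h.2.2.1 h.2.2.2.1 h.2.2.2.2).le
  have hp : p < 6 := by omega
  clear h
  induction k using Nat.strong_induction_on with | _ k ihk => ?_
  by_cases hk : k < 9
  · interval_cases p <;> interval_cases k <;> first | omega | decide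
  · obtain ⟨j, rfl⟩ : ∃ j, k = j + 3 := ⟨k - 3, by omega⟩
    rw [← add_assoc, abG_add_three (by omega), abG_add_three (by omega), mul_left_comm]
    exact Nat.mul_le_mul_left _ (ihk j (by omega))

theorem prod_le_abF (m : Multiset ℕ) : m.prod ≤ abF m.sum := by
  induction m using Multiset.induction_on with
  | empty => decide
  | cons a s ih =>
    rw [Multiset.prod_cons, Multiset.sum_cons]
    exact (Nat.mul_le_mul_left _ ih).trans (mul_abF_le _ _)

theorem prod_le_abG (m : Multiset ℕ) (h : 2 ∉ m) : m.prod ≤ abG m.sum := by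
  induction m using Multiset.induction_on with
  | empty => decide
  | cons a s ih =>
    rw [Multiset.mem_cons, not_or] at h
    rw [Multiset.prod_cons, Multiset.sum_cons]
    exact (Nat.mul_le_mul_left _ (ih h.2)).trans (mul_abG_le _ _ (Ne.symm h.1))

theorem mem_of_prod_eq_abG {m : Multiset ℕ} (h : 2 ∉ m) (h3 : 3 ≤ m.sum) (h5 : m.sum ≠ 5)
    (he : abG m.sum ≤ m.prod) {p : ℕ} (hp : p ∈ m) : p = 3 ∨ p = 4 := by
  obtain ⟨s, rfl⟩ := Multiset.exists_cons_of_mem hp
  rw [Multiset.mem_cons, not_or] at h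
  rw [Multiset.sum_cons] at h3 h5 he
  rw [Multiset.prod_cons] at he
  by_contra h6
  rw [not_or] at h6
  by_cases h0 : p = 0
  · have := abG_pos (p + s.sum)
    rw [h0, zero_mul] at he
    rw [h0] at this
    omega
  exact absurd ((Nat.mul_le_mul_left _ (prod_le_abG s h.2)).trans_lt
    (mul_abG_lt p _ h0 (Ne.symm h.1) h6.1 h6.2 h3 h5)) (not_lt.2 he)

theorem abF_lt_two_mul {n : ℕ} (h : 3 ≤ n) : abF n < 2 * abG n := by
  induction n using Nat.strong_induction_on with | _ n ih => ?_
  by_cases hn : n < 9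
  · interval_cases n <;> decide
  · obtain ⟨k, rfl⟩ : ∃ k, n = k + 3 := ⟨n - 3, by omega⟩
    rw [abG_add_three (by omega), abF_add_three (by omega)]
    have := ih k (by omega) (by omega)
    omega

theorem prod_eq_of_mem {m : Multiset ℕ} (h : ∀ p ∈ m, p = 3 ∨ p = 4) :
    m.prod = 3 ^ m.count 3 * 2 ^ (2 * m.count 4) := by
  induction m using Multiset.induction_on with
  | empty => simp
  | cons a s ih =>
    rw [Multiset.prod_cons, ih fun p hp => h p (Multiset.mem_cons_of_mem hp)]
    rcases h a (Multiset.mem_cons_self _ _) with rfl | rfl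
    · simp [pow_succ]; ring
    · simp [mul_add, pow_add]; ring

theorem eq_of_prod_eq {m m' : Multiset ℕ} (h : ∀ p ∈ m, p = 3 ∨ p = 4)
    (h' : ∀ p ∈ m', p = 3 ∨ p = 4) (he : m.prod = m'.prod) : m = m' := by
  rw [prod_eq_of_mem h, prod_eq_of_mem h'] at he
  have h2 := congrArg (fun n : ℕ => n.factorization 2) he
  have h3 := congrArg (fun n : ℕ => n.factorization 3) he
  simp [Nat.factorization_mul, Nat.prime_two.factorization, Nat.prime_three.factorization] at h2 h3
  ext c
  by_cases c3 : c = 3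
  · rw [c3, h3]
  by_cases c4 : c = 4
  · rw [c4, h2]
  rw [Multiset.count_eq_zero.2 fun hc => by have := h c hc; omega,
    Multiset.count_eq_zero.2 fun hc => by have := h' c hc; omega]

theorem abF_vals (k : ℕ) : abF (3 * (k + 1)) = 3 ^ (k + 1) ∧ abF (3 * (k + 1) + 1) = 4 * 3 ^ k ∧
    abF (3 * (k + 1) + 2) = 2 * 3 ^ (k + 1) := by
  induction k with
  | zero => decide
  | succ k ih =>
    rw [show 3 * (k + 1 + 1) + 1 = 3 * (k + 1) + 1 + 3 by ring,
      show 3 * (k + 1 + 1) + 2 = 3 * (k + 1) + 2 + 3 by ring,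
      show 3 * (k + 1 + 1) = 3 * (k + 1) + 3 by ring, abF_add_three (by omega),
      abF_add_three (by omega), abF_add_three (by omega), ih.1, ih.2.1, ih.2.2]
    refine ⟨?_, ?_, ?_⟩ <;> ring

theorem abG_vals (k : ℕ) : abG (3 * (k + 2)) = 3 ^ (k + 2) ∧
    abG (3 * (k + 2) + 1) = 4 * 3 ^ (k + 1) ∧ abG (3 * (k + 2) + 2) = 16 * 3 ^ k := by
  induction k with
  | zero => decide
  | succ k ih =>
    rw [show 3 * (k + 1 + 2) + 1 = 3 * (k + 2) + 1 + 3 by ring,
      show 3 * (k + 1 + 2) + 2 = 3 * (k + 2) + 2 + 3 by ring,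
      show 3 * (k + 1 + 2) = 3 * (k + 2) + 3 by ring, abG_add_three (by omega),
      abG_add_three (by omega), abG_add_three (by omega), ih.1, ih.2.1, ih.2.2]
    refine ⟨?_, ?_, ?_⟩ <;> ring

end Cfsg.Agent.Alt
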