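import Cfsg.Agent.Lib.Alt.Nilp

set_option autoImplicit false

namespace Cfsg.Agent.Alt

open Equiv Equiv.Perm MulAction

section General

variable {G : Type*} [Group G] [Finite G]

theorem nil_three_struct {N : Subgroup G} (hN : Group.IsNilpotent N) {e : ℕ}
    (hc : Nat.card N = 3 * 2 ^ e) : ∃ z : G, orderOf z = 3 ∧ ∃ Q : Subgroup G,
      Nat.card Q = 2 ^ e ∧ Q ≤ Subgroup.centralizer {z} ∧ N = Q ⊔ Subgroup.zpowers z := by
  obtain ⟨P⟩ : Nonempty (Sylow 2 N) := inferInstance
  obtain ⟨H, hH, hHC⟩ := exists_nilp_compl P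
  have h1 := card_sylow_of_eq P (hc.trans (mul_comm _ _)) (by norm_num)
  have h2 := hH.card_mul_card
  rw [h1, hc, mul_comm] at h2
  have h3 : Nat.card H = 3 := Nat.eq_of_mul_eq_mul_right (by positivity) h2
  have := Fact.mk Nat.prime_three
  obtain ⟨z, hz⟩ := exists_prime_orderOf_dvd_card' (G := H) 3 h3.symm.dvd
  have h4 : Subgroup.zpowers z.1 = H := by
    apply Subgroup.eq_of_le_of_card_ge (Subgroup.zpowers_le.2 z.2)
    rw [h3, Nat.card_zpowers, Subgroup.orderOf_coe, hz]
  refine ⟨z.1.1, by rw [Subgroup.orderOf_coe, Subgroup.orderOf_coe, hz],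
    (P : Subgroup N).map N.subtype, ?_, ?_, ?_⟩
  · rw [Subgroup.card_map_of_injective N.subtype_injective, h1]
  · rintro _ ⟨x, hx, rfl⟩
    rw [Subgroup.mem_centralizer_singleton_iff]
    exact congrArg Subtype.val (hHC z.2 x hx)
  · have h5 := MonoidHom.map_zpowers N.subtype z.1
    rw [Subgroup.coe_subtype] at h5
    rw [← h5, ← Subgroup.map_sup, h4, hH.sup_eq_top, ← MonoidHom.range_eq_map,
      Subgroup.range_subtype]

theorem conj_of_three {z₁ z₂ : G} {Q₁ Q₂ : Subgroup G} {e : ℕ} (h1 : Nat.card Q₁ = 2 ^ e)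
    (h2 : Nat.card Q₂ = 2 ^ e) (h3 : Q₁ ≤ Subgroup.centralizer {z₁})
    (h4 : Q₂ ≤ Subgroup.centralizer {z₂}) (hc : IsConj z₁ z₂)
    (hC : ¬ 2 ^ (e + 1) ∣ Nat.card (Subgroup.centralizer ({z₂} : Set G))) :
    ∃ g : G, Q₂ ⊔ Subgroup.zpowers z₂ = (Q₁ ⊔ Subgroup.zpowers z₁).map (MulAut.conj g).toMonoidHom := by
  obtain ⟨c, rfl⟩ := isConj_iff.1 hc
  set C := Subgroup.centralizer ({c * z₁ * c⁻¹} : Set G)
  have h5 : Nat.card (Q₂.subgroupOf C) = 2 ^ e :=
    (Nat.card_congr (Subgroup.subgroupOfEquivOfLe h4).toEquiv).trans h2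
  have h6 : ¬ 2 ∣ (Q₂.subgroupOf C).index := fun h => hC (by
    rw [← (Q₂.subgroupOf C).card_mul_index, h5, pow_succ]
    exact Nat.mul_dvd_mul_left _ h)
  have h7 : IsPGroup 2 (Q₁.map (MulAut.conj c).toMonoidHom) := (IsPGroup.of_card h1).map _
  obtain ⟨d, -, hd⟩ := exists_conj_le_sylow ((IsPGroup.of_card h5).toSylow h6) le_top
    (Q := (Q₁.map (MulAut.conj c).toMonoidHom).subgroupOf C) le_top
    (h7.comap_of_injective _ C.subtype_injective)
  have h8 : Q₁.map (MulAut.conj (d.1 * c)).toMonoidHom = Q₂ := by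
    apply Subgroup.eq_of_le_of_card_ge
    · rintro _ ⟨x, hx, rfl⟩
      have h9 : c * x * c⁻¹ ∈ C := by
        rw [Subgroup.mem_centralizer_singleton_iff, conj_mul, conj_mul,
          Subgroup.mem_centralizer_singleton_iff.1 (h3 hx)]
      have h10 : d.1 * (c * x * c⁻¹) * d.1⁻¹ ∈ Q₂ := hd ⟨_, h9⟩ ⟨x, hx, rfl⟩
      simpa only [MulEquiv.coe_toMonoidHom, MulAut.conj_apply, mul_assoc, mul_inv_rev] using h10
    · rw [Subgroup.card_map_of_injective (MulAut.conj _).injective, h1, h2]
  refine ⟨d.1 * c, ?_⟩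
  rw [Subgroup.map_sup, h8, MonoidHom.map_zpowers]
  congr 2
  have h9 := Subgroup.mem_centralizer_singleton_iff.1 d.2
  change _ = d.1 * c * z₁ * (d.1 * c)⁻¹
  calc c * z₁ * c⁻¹ = d.1 * (c * z₁ * c⁻¹) * d.1⁻¹ := by rw [h9, mul_inv_cancel_right]
    _ = _ := by group

end General

variable {α : Type*} [Fintype α] [DecidableEq α]

theorem card_centralizer_replicate {z : Perm α} {k p : ℕ}
    (h : z.cycleType = Multiset.replicate (k + 1) p) :
    Nat.card (Subgroup.centralizer ({z} : Set (Perm α))) =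
      (Fintype.card α - (k + 1) * p).factorial * p ^ (k + 1) * (k + 1).factorial := by
  rw [nat_card_centralizer, h, Multiset.sum_replicate, Multiset.prod_replicate,
    Multiset.toFinset_replicate, if_neg (Nat.succ_ne_zero k), Finset.prod_singleton,
    Multiset.count_replicate_self, smul_eq_mul]

theorem card_centralizer_threeCycle {z : Perm α} (h : z.IsThreeCycle) :
    Nat.card (Subgroup.centralizer ({z} : Set (Perm α))) = (Fintype.card α - 3).factorial * 3 := by
  have := card_centralizer_replicate (z := z) (k := 0) (p := 3) h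
  simpa using this

theorem isThreeCycle_of_dvd (h4 : Fintype.card α % 4 = 3) {z : Perm α} (hz : orderOf z = 3) {e : ℕ}
    (he : vF (Fintype.card α - 3) ≤ e + 1)
    (hd : 2 ^ e ∣ Nat.card (Subgroup.centralizer ({z} : Set (Perm α)))) : z.IsThreeCycle := by
  obtain ⟨k, hk⟩ := cycleType_prime_order (hz ▸ Nat.prime_three)
  rw [hz] at hk
  by_cases h0 : k = 0
  · subst h0
    exact hk
  exfalso
  have h1 := z.sum_cycleType_le
  rw [hk, Multiset.sum_replicate, smul_eq_mul] at h1
  have h2 := (Nat.prime_two.pow_dvd_iff_le_factorization Nat.card_pos.ne').1 hd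
  rw [card_centralizer_replicate hk, Nat.factorization_mul (by positivity) (by positivity),
    Nat.factorization_mul (by positivity) (by positivity), Finsupp.add_apply, Finsupp.add_apply,
    Nat.factorization_eq_zero_of_not_dvd (p := 2) (n := 3 ^ (k + 1))
      (fun h => absurd (Nat.prime_two.dvd_of_dvd_pow h) (by norm_num))] at h2
  have h3 := vF_add_le (Fintype.card α - (k + 1) * 3) (k + 1)
  obtain ⟨j, hj⟩ : ∃ j, Fintype.card α = 4 * (j + 1) + 3 := ⟨Fintype.card α / 4 - 1, by omega⟩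
  have h5 := vF_mono (show Fintype.card α - (k + 1) * 3 + (k + 1) ≤ 4 * j + 3 by omega)
  have h6 := vF_mono (Nat.le_succ j)
  rw [vF_four_mul_add_three, vF_four_mul] at h5
  rw [hj, Nat.add_sub_cancel, vF_four_mul] at he
  simp only [vF, Nat.succ_eq_add_one] at *
  omega

/-- Adjoining a 3-cycle. -/
noncomputable def addThree (m n : ℕ) (h : m + 3 = n) :
    Perm (Fin m) × Multiplicative (ZMod 3) →* Perm (Fin n) :=
  ((Fintype.equivFinOfCardEq (α := Fin m ⊕ Multiplicative (ZMod 3))
    (by simp [← h])).permCongrHom.toMonoidHom).comp ((sumCongrHom _ _).comp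
      ((MonoidHom.id _).prodMap (MulAction.toPermHom _ (Multiplicative (ZMod 3)))))

theorem addThree_injective (m n : ℕ) (h : m + 3 = n) : Function.Injective (addThree m n h) := by
  unfold addThree
  rw [MonoidHom.coe_comp, MonoidHom.coe_comp]
  refine (Equiv.permCongrHom _).injective.comp (sumCongrHom_injective.comp ?_)
  exact Function.injective_id.prodMap MulAction.toPerm_injective

theorem sign_addThree (m n : ℕ) (h : m + 3 = n) (x : Perm (Fin m) × Multiplicative (ZMod 3)) :
    sign (addThree m n h x) = sign x.1 := by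
  have h1 : ∀ y : Multiplicative (ZMod 3),
      sign (MulAction.toPermHom _ (Multiplicative (ZMod 3)) y) = 1 := by decide
  simpa [addThree, permCongrHom, sumCongrHom] using h1 x.2

end Cfsg.Agent.Alt
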