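import Cfsg.Agent.Lib.Alt.Carmichael

/-!
# Even permutations as commutators whose first entry has two transpositions among its cycles
-/

set_option autoImplicit false

namespace Cfsg.Agent.Alt

open Equiv Equiv.Perm Finset

variable {α : Type*} [DecidableEq α] [Fintype α]

theorem exists_invols (σ : Perm α) : ∀ x, ∃ s t : Perm α, s ^ 2 = 1 ∧ t ^ 2 = 1 ∧ σ = s * t ∧
    t x = x ∧ (∀ y, σ y = y → s y = y ∧ t y = y) ∧
    (sign σ = 1 ∧ #s.support = #t.support ∨ sign σ = -1 ∧ #s.support = #t.support + 2) := by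
  induction hk : #σ.support using Nat.strong_induction_on generalizing σ with
  | _ k ih =>
  suffices h : ∀ x, σ x ≠ x → ∃ s t : Perm α, s ^ 2 = 1 ∧ t ^ 2 = 1 ∧ σ = s * t ∧
      t x = x ∧ (∀ y, σ y = y → s y = y ∧ t y = y) ∧
      (sign σ = 1 ∧ #s.support = #t.support ∨ sign σ = -1 ∧ #s.support = #t.support + 2) by
    intro x
    by_cases hx : σ x = x
    · by_cases h1 : σ = 1
      · exact ⟨1, 1, by simp [h1]⟩
      obtain ⟨y, hy⟩ : ∃ y, σ y ≠ y := by
        by_contra h2
        push Not at h2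
        exact h1 (Equiv.ext h2)
      obtain ⟨s, t, h2, h3, h4, -, h5, h6⟩ := h y hy
      exact ⟨s, t, h2, h3, h4, (h5 x hx).2, h5, h6⟩
    · exact h x hx
  intro x hx
  obtain ⟨s, t, h2, h3, h4, h5, h6, h7⟩ := ih _ (by
    rw [support_inv, ← hk]; exact card_support_swap_mul hx) (swap x (σ x) * σ)⁻¹ rfl (σ x)
  have hs : s⁻¹ = s := inv_eq_of_mul_eq_one_left (by rw [← sq, h2])
  have ht : t⁻¹ = t := inv_eq_of_mul_eq_one_left (by rw [← sq, h3])
  have h8 := h6 x (by rw [inv_eq_iff_eq]; simp)
  have hd : (swap x (σ x)).Disjoint t := fun y => by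
    by_cases h : y = x
    · exact Or.inr (h ▸ h8.2)
    by_cases h' : y = σ x
    · exact Or.inr (h' ▸ h5)
    · exact Or.inl (swap_apply_of_ne_of_ne h h')
  refine ⟨swap x (σ x) * t, s, by rw [hd.commute.mul_pow, h3, sq, swap_mul_self, one_mul], h2, ?_,
    h8.1, fun y hy => ?_, ?_⟩
  · rw [mul_assoc, ← hs, ← ht, ← mul_inv_rev, ← h4, inv_inv, swap_mul_self_mul]
  · have h9 : swap x (σ x) y = y := swap_apply_of_ne_of_ne (by rintro rfl; exact hx hy)
      (by rintro rfl; exact hx (σ.injective hy))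
    have := h6 y (by rw [inv_eq_iff_eq, mul_apply, hy, h9])
    exact ⟨by rw [mul_apply, this.2, h9], this.1⟩
  · rw [hd.card_support_mul, card_support_swap hx.symm]
    rw [sign_inv, Perm.sign_mul, sign_swap hx.symm, neg_one_mul, neg_eq_iff_eq_neg, neg_inj] at h7
    rcases h7 with h7 | h7
    · exact Or.inr ⟨h7.1, by omega⟩
    · exact Or.inl ⟨h7.1, by omega⟩

/-- two of the cycles are transpositions -/
def DT (a : Perm α) : Prop :=
  ∃ p q r s, [p, q, r, s].Nodup ∧ a p = q ∧ a q = p ∧ a r = s ∧ a s = r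

theorem exists_even_conj {a b : Perm α} (h : a.cycleType = b.cycleType) {p q : α} (hpq : p ≠ q)
    (h1 : a p = q) (h2 : a q = p) : ∃ g, sign g = 1 ∧ g * a * g⁻¹ = b := by
  obtain ⟨g, rfl⟩ := isConj_iff.1 (isConj_of_cycleType_eq h)
  rcases Int.units_eq_one_or (sign g) with h3 | h3
  · exact ⟨g, h3, rfl⟩
  · refine ⟨g * swap p q, by simp [h3, hpq], ?_⟩
    rw [mul_assoc g, show swap p q * a = a * swap p q by
      rw [mul_swap_eq_swap_mul, h1, h2, swap_comm]]
    simp [mul_assoc]

/-- a commutator of the required form -/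
def GoodComm (σ : Perm α) : Prop :=
  ∃ a g : Perm α, sign a = 1 ∧ sign g = 1 ∧ DT a ∧ σ = a * g * a⁻¹ * g⁻¹

theorem GoodComm.of_type {a b : Perm α} (h : a.cycleType = b.cycleType) (hs : sign a = 1)
    (hd : DT a) : GoodComm (a * b) := by
  obtain ⟨p, q, r, s, h0, h1, h2, -⟩ := id hd
  obtain ⟨g, h3, h4⟩ := exists_even_conj (a := a⁻¹) (b := b) (p := p) (q := q)
    (by rw [cycleType_inv, h]) (by simp_all) (by rw [inv_eq_iff_eq, h2]) (by rw [inv_eq_iff_eq, h1])
  exact ⟨a, g, hs, h3, hd, by rw [← h4]; simp [mul_assoc]⟩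

theorem GoodComm.of_swaps {p q r s p' q' r' s' : α} (h : [p, q, r, s].Nodup)
    (h' : [p', q', r', s'].Nodup) : GoodComm (swap p q * swap r s * (swap p' q' * swap r' s')) := by
  refine GoodComm.of_type (by
    rw [cycleType_swap_mul_swap_of_nodup h, cycleType_swap_mul_swap_of_nodup h']) ?_
    ⟨p, q, r, s, h, ?_⟩ <;> simp only [List.nodup_cons, List.mem_cons, not_or] at h
  · simp [h.1.1, h.2.2.1.1]
  · simp only [mul_apply, swap_apply_def]; grind

theorem exists_dt {t : Perm α} (ht : t ^ 2 = 1) (h : 2 < #t.support) :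
    ∃ p q r s, [p, q, r, s].Nodup ∧ t p = q ∧ t q = p ∧ t r = s ∧ t s = r := by
  have h1 : ∀ x, t (t x) = x := fun x => by rw [← mul_apply, ← sq, ht, one_apply]
  obtain ⟨p, hp⟩ := card_pos.1 (show 0 < #t.support by omega)
  obtain ⟨r, hr, hr'⟩ := exists_mem_notMem_of_card_lt_card (s := {p, t p}) (t := t.support)
    (card_le_two.trans_lt h)
  rw [mem_support] at hp hr
  refine ⟨p, t p, r, t r, ?_, rfl, h1 p, rfl, h1 r⟩
  simp only [mem_insert, mem_singleton, not_or] at hr'
  have := h1 p
  have := h1 r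
  simp only [List.nodup_cons, List.mem_cons, List.not_mem_nil, or_false, not_or, List.nodup_nil]
  grind

theorem cycleType_invol {s t : Perm α} (hs : s ^ 2 = 1) (ht : t ^ 2 = 1)
    (h : #s.support = #t.support) : s.cycleType = t.cycleType := by
  have h1 := sum_cycleType s
  have h2 := sum_cycleType t
  rw [cycleType_of_pow_prime_eq_one hs, Multiset.sum_replicate, smul_eq_mul] at h1
  rw [cycleType_of_pow_prime_eq_one ht, Multiset.sum_replicate, smul_eq_mul] at h2
  rw [cycleType_of_pow_prime_eq_one hs, cycleType_of_pow_prime_eq_one ht]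
  congr 1
  omega

theorem invol_mul_swap {s : Perm α} (hs : s ^ 2 = 1) {x y : α} (hx : s x ≠ x) (hy : s y = y) :
    ∃ s' c : Perm α, s' ^ 2 = 1 ∧ #s'.support + 2 = #s.support ∧ c.IsThreeCycle ∧ s'.Disjoint c ∧
      s * swap x y = s' * c := by
  have h1 : ∀ x, s (s x) = x := fun x => by rw [← mul_apply, ← sq, hs, one_apply]
  have h2 := h1 x
  have h3 : x ≠ y := by rintro rfl; exact hx hy
  have h4 : s x ≠ y := by rintro rfl; exact hx (hy.symm.trans h2)
  have hd : (s * swap x (s x)).Disjoint (swap x (s x)) := fun z => by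
    simp only [mul_apply, swap_apply_def]; grind
  refine ⟨s * swap x (s x), swap x (s x) * swap x y, ?_, ?_,
    isThreeCycle_swap_mul_swap_same hx.symm h3 h4, fun z => ?_, by simp [mul_assoc]⟩
  · ext z
    have := h1 z
    simp only [sq, mul_apply, swap_apply_def, one_apply]; grind
  · have := hd.card_support_mul
    rw [mul_swap_mul_self, card_support_swap hx.symm] at this
    exact this.symm
  · simp only [mul_apply, swap_apply_def]; grind

theorem goodComm (hn : 5 ≤ Fintype.card α) {σ : Perm α} (hσ : sign σ = 1) : GoodComm σ := by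
  have out : ∀ x y z : α, ∃ a b, a ≠ b ∧ a ∉ ({x, y, z} : Finset α) ∧ b ∉ ({x, y, z} : Finset α) :=
    fun x y z => by
      have h1 := card_le_three (a := x) (b := y) (c := z)
      obtain ⟨a, b, ha, hb, h⟩ := one_lt_card_iff.1 (show 1 < #({x, y, z} : Finset α)ᶜ by
        rw [card_compl]; omega)
      exact ⟨a, b, h, mem_compl.1 ha, mem_compl.1 hb⟩
  by_cases h1 : σ = 1
  · obtain ⟨x⟩ := Fintype.card_pos_iff.1 (show 0 < Fintype.card α by omega)
    obtain ⟨y, -, -, hy, -⟩ := out x x x
    obtain ⟨a, b, h⟩ := out x y y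
    have := GoodComm.of_swaps (p := x) (q := y) (r := a) (s := b) (p' := a) (q' := b) (r' := x)
      (s' := y) (by simp at *; grind) (by simp at *; grind)
    rwa [mul_assoc, swap_mul_self_mul, swap_mul_self, ← h1] at this
  obtain ⟨x, hx⟩ : ∃ y, σ y ≠ y := by
    by_contra h2
    push Not at h2
    exact h1 (Equiv.ext h2)
  obtain ⟨s, t, h2, h3, rfl, h5, -, h6⟩ := exists_invols σ x
  have h7 : #s.support = #t.support := (h6.resolve_right fun h => by simp [hσ] at h).2
  rw [mul_apply, h5] at hx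
  obtain ⟨y, hy, hy'⟩ : ∃ y, t y ≠ y ∧ s y = y := by
    by_contra h
    push Not at h
    have := eq_of_subset_of_card_le (s := t.support) (t := s.support)
      (fun y hy => mem_support.2 (h y (mem_support.1 hy))) h7.le
    exact mem_support.1 (this ▸ mem_support.2 hx) h5
  have hxy : x ≠ y := by rintro rfl; exact hx hy'
  by_cases h8 : #s.support = 2
  · have key : ∀ {s : Perm α} {x : α}, s.IsSwap → s x ≠ x → ∃ u, s = swap x u := by
      rintro _ x ⟨a, b, -, rfl⟩ h
      rcases eq_or_eq_of_swap_apply_ne_self h with rfl | rfl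
      exacts [⟨b, rfl⟩, ⟨a, swap_comm _ _⟩]
    obtain ⟨u, rfl⟩ := key (card_support_eq_two.1 h8) hx
    obtain ⟨v, rfl⟩ := key (card_support_eq_two.1 (h7 ▸ h8)) hy
    rw [swap_apply_left] at hx hy
    have h9 : y ≠ u := by rintro rfl; simp [hxy] at hy'
    have h10 : x ≠ v := by rintro rfl; simp [hxy.symm] at h5
    by_cases huv : u = v
    · obtain ⟨a, b, h⟩ := out x y u
      have := GoodComm.of_swaps (p := x) (q := u) (r := a) (s := b) (p' := a) (q' := b) (r' := y)
        (s' := v) (by simp at *; grind) (by simp at *; grind)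
      rwa [mul_assoc, swap_mul_self_mul] at this
    · convert GoodComm.of_swaps (p := x) (q := y) (r := u) (s := v) (p' := x) (q' := v) (r' := u)
        (s' := y) (by simp; grind) (by simp; grind) using 1
      ext z
      simp only [mul_apply, swap_apply_def]; grind
  have h9 : 2 < #s.support := by
    have := two_dvd_card_support h2
    have := card_pos.2 ⟨x, mem_support.2 hx⟩
    omega
  rcases Int.units_eq_one_or (sign s) with h10 | h10
  · exact GoodComm.of_type (cycleType_invol h2 h3 h7) h10 (exists_dt h2 h9)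
  obtain ⟨s', c, p1, p2, p3, p4, p5⟩ := invol_mul_swap h2 hx hy'
  obtain ⟨t', d, q1, q2, q3, q4, q5⟩ := invol_mul_swap h3 hy h5
  have ht : t⁻¹ = t := inv_eq_of_mul_eq_one_left (by rw [← sq, h3])
  have h11 : sign (s * swap x y) = 1 := by simp [h10, hxy]
  have := GoodComm.of_type (a := s * swap x y) (b := (t * swap y x)⁻¹) (by
    rw [cycleType_inv, p5, q5, p4.cycleType_mul, q4.cycleType_mul, p3.cycleType, q3.cycleType,
      cycleType_invol p1 q1 (by omega)]) h11 (by
    obtain ⟨p, q, r, w, h⟩ := exists_dt p1 (by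
      by_contra h
      rw [p5, Perm.sign_mul, p3.sign, mul_one,
        (card_support_eq_two.1 (by have := two_dvd_card_support p1; omega)).sign_eq] at h11
      simp at h11)
    have h12 : ∀ z, s' z ≠ z → (s' * c) z = s' z := fun z hz => by
      rw [mul_apply, (p4 z).resolve_left hz]
    refine ⟨p, q, r, w, h.1, ?_⟩
    have := h.1
    simp only [List.nodup_cons, List.mem_cons, not_or] at this
    rw [p5, h12, h12, h12, h12]
    · exact h.2
    all_goals grind)
  rwa [mul_inv_rev, swap_inv, ht, swap_comm y, mul_assoc, swap_mul_self_mul] at this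

end Cfsg.Agent.Alt
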